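import Cfsg.Agent.H6.ORE.CoOne
import Cfsg.Agent.H956.IF.LargeC
import Cfsg.Agent.S2146
import Cfsg.Agent.KFacts.Co1D4.TwoB
import Cfsg.Agent.CoOneType.GenCrit
import Cfsg.Agent.MonsterU.CoFrameF

/-!
# S5719, row `Co₁` (helper956): group theoretic facts

* `cent_le` : `A ≤ Co₁` with `|C(z) : A ∩ C(z)| < 120`, `z` of octad type, contains `C(z)`;
* `eq_top_of_cent` : a subgroup containing the centralisers of all octad elements of `E` is `Co₁`;
* `exists_octad` : a subgroup `A` with `|A ∩ E| ≥ 19` contains an octad element of `E`.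
-/

set_option autoImplicit false

namespace Cfsg.Agent.H956.IF.Co1A

open Cfsg Subgroup Cfsg.Agent.CoOneNWC.OmFacts Cfsg.Agent.H867.MinIdx Cfsg.Agent.H6.ORE
open Cfsg.Agent.KFacts.Co1.InCo1 (RCo1)
open Cfsg.Agent.CoOneType.GenCrit (c0 m0)
open Cfsg.Agent.H812.CoFiveData (z wt_c0)
open Cfsg.Agent.CoOneType.ClosingFacts (mk mk_mul mk_inv exists_mk mk_eq_one mk_eq mk_add_allOne isConj_octad)
open Cfsg.Agent.SporadicA.Co0Mono Cfsg.Agent.SporadicA.Co1Simple
open Cfsg.Agent.CoOneType.SignFacts (sup mem_sup notMem_sup wt sup_mem wt_cases sup_add_allOne wt_add_allOne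
  sign_allOne_comm wt_eq_of_conj)
open Cfsg.Agent.CoOneType.CoOneE (pr pr_surjective E mem_E E_sq N_normalises card_E isConj_octad_iff
  pr_sign_add_allOne pr_sign_eq_iff)

theorem fin : Finite Spor.Co1 := H812.CoFiveData.finite_co1

theorem mi_om8 : MI Om8 120 := by
  have e : Om8 ≃* Cfsg.POmega (ZMod 2) (Cfsg.quadFormPlus 4 (ZMod 2)) :=
    (QuotientGroup.quotientBot.symm).trans (QuotientGroup.quotientMulEquivOfEq center_om8.symm)
  have h1 : MI (Cfsg.POmega (ZMod 2) (Cfsg.quadFormPlus 4 (ZMod 2))) 120 := by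
    apply MI.of_index
    intro K hK
    have h := (S2146.result (F := ZMod 2) (ZMod.card 2) 4 le_rfl).1 K hK
    norm_num at h
    exact h
  exact h1.congr e.symm

theorem cent_z_le {A : Subgroup Spor.Co1} (hA : A.relIndex (CZ z) < 120) : CZ z ≤ A := by
  have := fin
  obtain ⟨π, hπ, hk⟩ := H6.ORE.CoOne.exists_pi
  refine LargeC.cent_le (KFacts.Co1.InCo1.large wt_c0) (KFacts.Co1.InCo1.irr wt_c0) π hπ (fun c hc => ?_) mi_om8 hA ?_
  · have h1 : c ∈ π.ker := hc
    rw [hk] at h1
    exact h1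
  · rw [KFacts.Co1.YBig.card_R wt_c0]
    show 2 * A.relIndex (CZ z) < 512
    omega

theorem map_cent {T : Type*} [Group T] {z t g : T} (h : g * z * g⁻¹ = t) :
    (centralizer ({z} : Set T)).map (MulAut.conj g).toMonoidHom = centralizer ({t} : Set T) := by
  ext x
  rw [mem_centralizer_singleton_iff]
  constructor
  · rintro ⟨y, hy, rfl⟩
    have h1 : y * z = z * y := mem_centralizer_singleton_iff.1 hy
    show g * y * g⁻¹ * t = t * (g * y * g⁻¹)
    rw [← h]
    calc g * y * g⁻¹ * (g * z * g⁻¹) = g * (y * z) * g⁻¹ := by group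
      _ = g * (z * y) * g⁻¹ := by rw [h1]
      _ = _ := by group
  · intro hx
    refine ⟨g⁻¹ * x * g, ?_, ?_⟩
    · have h1 : g⁻¹ * x * g * z = z * (g⁻¹ * x * g) := by
        rw [← h] at hx
        calc g⁻¹ * x * g * z = g⁻¹ * (x * (g * z * g⁻¹)) * g := by group
          _ = g⁻¹ * (g * z * g⁻¹ * x) * g := by rw [hx]
          _ = _ := by group
      exact mem_centralizer_singleton_iff.2 h1
    · show g * (g⁻¹ * x * g) * g⁻¹ = x
      group

/-- **the centraliser of an octad involution** -/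
theorem cent_le {o : golayCode} (ho : wt o = 8) {A : Subgroup Spor.Co1}
    (hA : A.relIndex (centralizer ({mk (signCo0 o)} : Set Spor.Co1)) < 120) :
    centralizer ({mk (signCo0 o)} : Set Spor.Co1) ≤ A := by
  obtain ⟨g, hg⟩ := isConj_iff.1 (isConj_octad wt_c0 ho)
  have h1 : (A.comap (MulAut.conj g).toMonoidHom).relIndex (CZ z) < 120 := by
    rw [Subgroup.relIndex_comap, map_cent hg]
    exact hA
  have h2 := cent_z_le h1
  rw [← map_cent hg]
  rintro _ ⟨y, hy, rfl⟩
  exact h2 hy

theorem card_cent {o : golayCode} (ho : wt o = 8) :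
    Nat.card (centralizer ({mk (signCo0 o)} : Set Spor.Co1)) = 89181388800 := by
  obtain ⟨g, hg⟩ := isConj_iff.1 (isConj_octad wt_c0 ho)
  rw [← map_cent hg, Subgroup.card_map_of_injective (MulAut.conj g).injective]
  exact H6.ORE.CoOne.card_cent

theorem card_Co1 : Nat.card Spor.Co1 = 4157776806543360000 := MonsterU.CoFrameF.card_Co1

theorem index_cent {o : golayCode} (ho : wt o = 8) :
    (centralizer ({mk (signCo0 o)} : Set Spor.Co1)).index = 46621575 := by
  have h1 := (centralizer ({mk (signCo0 o)} : Set Spor.Co1)).card_mul_index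
  rw [card_cent ho, card_Co1] at h1
  omega

theorem E_le_cent (c : golayCode) : E ≤ centralizer ({mk (signCo0 c)} : Set Spor.Co1) := by
  intro x hx
  exact mem_centralizer_singleton_iff.2 (MonsterU.CoFrameF.comm_of_mem_E hx ⟨c, rfl⟩)

/-- **a subgroup containing the centralisers of all octad elements of `E`** -/
theorem eq_top_of_cent {A : Subgroup Spor.Co1}
    (hA : ∀ o : golayCode, wt o = 8 → centralizer ({mk (signCo0 o)} : Set Spor.Co1) ≤ A) : A = ⊤ := by
  have hfin := fin
  have hs : IsSimpleGroup Spor.Co1 := Cfsg.Agent.S0399.result.1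
  set S : Set Spor.Co1 := {x | ∃ o : golayCode, wt o = 8 ∧ x ∈ centralizer ({mk (signCo0 o)} : Set Spor.Co1)} with hS
  set K := closure S with hK
  have hKA : K ≤ A := by
    rw [hK, closure_le]
    rintro x ⟨o, ho, hx⟩
    exact hA o ho hx
  -- `N` normalises `K`
  have hN : ∀ g ∈ N, ∀ x ∈ K, pr g * x * (pr g)⁻¹ ∈ K := by
    intro g hg x hx
    have h1 : K ≤ K.comap (MulAut.conj (pr g)).toMonoidHom := by
      conv_lhs => rw [hK]
      rw [closure_le]
      rintro y ⟨o, ho, hy⟩
      obtain ⟨d, hd⟩ := N_normalises g hg o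
      have hd8 : wt d = 8 ∨ wt d = 16 := by
        have h2 : IsConj (pr (signCo0 o)) (pr (signCo0 d)) := by
          rw [isConj_iff]
          exact ⟨pr g, by rw [← map_inv, ← map_mul, ← map_mul, hd]⟩
        exact (isConj_octad_iff o d ho).1 h2
      have h3 : ∃ d' : golayCode, wt d' = 8 ∧ mk (signCo0 d') = mk (signCo0 d) := by
        rcases hd8 with h | h
        · exact ⟨d, h, rfl⟩
        · refine ⟨d + allOne, ?_, mk_add_allOne d⟩
          have := wt_add_allOne d
          omega
      obtain ⟨d', hd', he⟩ := h3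
      apply Subgroup.subset_closure
      refine ⟨d', hd', ?_⟩
      have h4 : pr g * mk (signCo0 o) * (pr g)⁻¹ = mk (signCo0 d') := by
        rw [he]
        show pr g * pr (signCo0 o) * (pr g)⁻¹ = pr (signCo0 d)
        rw [← map_inv, ← map_mul, ← map_mul, hd]
      rw [← map_cent h4]
      exact ⟨y, hy, rfl⟩
    exact h1 hx
  have hNn : N ≤ (normalizer (K : Set Spor.Co1)).comap pr := by
    intro g hg
    show pr g ∈ normalizer (K : Set Spor.Co1)
    rw [Subgroup.mem_normalizer_iff]
    intro x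
    refine ⟨hN g hg x, fun hx => ?_⟩
    have h1 := hN g⁻¹ (N.inv_mem hg) _ hx
    have h2 : pr g⁻¹ * (pr g * x * (pr g)⁻¹) * (pr g⁻¹)⁻¹ = x := by rw [map_inv]; group
    rwa [h2] at h1
  have hcK : centralizer ({mk (signCo0 c0)} : Set Spor.Co1) ≤ K := fun x hx =>
    Subgroup.subset_closure ⟨c0, wt_c0, hx⟩
  have hlt : N < (normalizer (K : Set Spor.Co1)).comap pr := by
    refine lt_of_le_of_ne hNn fun heq => ?_
    have h1 : centralizer ({mk (signCo0 c0)} : Set Spor.Co1) ≤ N.map pr := by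
      intro x hx
      obtain ⟨g, rfl⟩ := pr_surjective x
      have h2 : g ∈ (normalizer (K : Set Spor.Co1)).comap pr := Subgroup.le_normalizer (hcK hx)
      rw [← heq] at h2
      exact ⟨g, h2, rfl⟩
    have h2 := Subgroup.card_dvd_of_le h1
    have h3 : Nat.card (N.map pr) = 2048 * 244823040 := MonsterU.CoFrameF.card_F
    rw [card_cent wt_c0, h3] at h2
    norm_num at h2
  have htop : normalizer (K : Set Spor.Co1) = ⊤ := by
    have h1 := CoOneType.GenCrit.isCoatom_N.2 _ hlt
    rw [eq_top_iff]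
    intro x _
    obtain ⟨g, rfl⟩ := pr_surjective x
    have h2 : g ∈ (normalizer (K : Set Spor.Co1)).comap pr := by rw [h1]; exact mem_top g
    exact h2
  have hKn : K.Normal := Subgroup.normalizer_eq_top_iff.1 htop
  rcases hKn.eq_bot_or_eq_top with h1 | h1
  · exfalso
    have h2 : Nat.card (centralizer ({mk (signCo0 c0)} : Set Spor.Co1)) = 1 := by
      rw [Subgroup.card_eq_one, eq_bot_iff, ← h1]
      exact hcK
    rw [card_cent wt_c0] at h2
    norm_num at h2
  · rw [eq_top_iff, ← h1]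
    exact hKA

end Cfsg.Agent.H956.IF.Co1A
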