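import Cfsg.Agent.H956.IF.Co1D
import Cfsg.Agent.H707.RowCo1
import Cfsg.Agent.ConwayFacts.AutCo1
import Cfsg.Agent.H999.IF.EngB
import Cfsg.Agent.H209.IF.Kill

/-!
# S5719, row `Co₁` (helper956)

* `exists_sign` : a 2-subgroup of order at least `16` contains an involution of octad or dodecad type (its preimage
  in `Co₀` does not act semiregularly on the `196560` minimal vectors);
* `kill` : no `IF` in `Co₁`; `row_co1`.
-/

set_option autoImplicit false

namespace Cfsg.Agent.H956.IF.Co1B

open Cfsg Subgroup MulAction Cfsg.Agent.H956.IF.Co1A Cfsg.Agent.H209.Fxy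
open Cfsg.Agent.CoOneType.ClosingFacts (mk mk_mul mk_inv exists_mk mk_eq_one mk_eq mk_add_allOne isConj_octad
  eq_zero_of_wt eq_allOne_of_wt)
open Cfsg.Agent.CoOneType.InvMain (b0 conj_sign_of_sq_one conj_b0_of_sq_neg)
open Cfsg.Agent.SporadicA.Co0Mono Cfsg.Agent.SporadicA.Co1Simple
open Cfsg.Agent.CoOneType.SignFacts (sup mem_sup notMem_sup wt sup_mem wt_cases sup_add_allOne wt_add_allOne
  sign_allOne_comm wt_eq_of_conj)
open Cfsg.Agent.CoOneType.CoOneE (pr pr_surjective E mem_E E_sq card_E pr_sign_add_allOne pr_sign_eq_iff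
  pr_sign_eq_one_iff)
open Cfsg.Agent.KFacts.Co1D4 (TwoB.w GTwo.L)

theorem fin0 : Finite Co0 := Cfsg.Agent.CoOneType.FrameFix.finite_co0

/-- a finite group without fixed points of its nontrivial elements -/
theorem card_dvd {H X : Type*} [Group H] [Finite H] [Finite X] [MulAction H X]
    (h : ∀ g : H, g ≠ 1 → ∀ x : X, g • x ≠ x) : Nat.card H ∣ Nat.card X := by
  classical
  have : Fintype H := Fintype.ofFinite H
  have : Fintype X := Fintype.ofFinite X
  have : Fintype (Quotient (orbitRel H X)) := Fintype.ofFinite _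
  have h1 := MulAction.sum_card_fixedBy_eq_card_orbits_mul_card_group H X
  have h2 : ∑ a : H, Fintype.card (fixedBy X a) = Fintype.card X := by
    rw [Finset.sum_eq_single (1 : H)]
    · rw [← Nat.card_eq_fintype_card, ← Nat.card_eq_fintype_card, fixedBy_one_eq_univ, Nat.card_univ]
    · intro g _ hg
      rw [Fintype.card_eq_zero_iff]
      exact ⟨fun x => h g hg x x.2⟩
    · intro h3
      exact absurd (Finset.mem_univ _) h3
  rw [h2] at h1
  rw [Nat.card_eq_fintype_card, Nat.card_eq_fintype_card, h1]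
  exact Dvd.intro_left _ rfl

theorem card_comap (R : Subgroup Spor.Co1) : Nat.card (R.comap pr) = 2 * Nat.card R := by
  have := fin0
  have hfin := fin
  have h1 := (R.comap pr).card_mul_index
  have h2 := R.card_mul_index
  rw [Subgroup.index_comap_of_surjective _ pr_surjective] at h1
  have h3 : Nat.card Co0 = 2 * Nat.card Spor.Co1 := by
    rw [Cfsg.Agent.S0397.result, card_Co1]
  have h4 : 0 < R.index := Nat.pos_of_ne_zero index_ne_zero_of_finite
  have h5 : Nat.card (R.comap pr) * R.index = 2 * Nat.card R * R.index := by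
    rw [h1, mul_assoc, h2, h3]
  exact Nat.eq_of_mul_eq_mul_right h4 h5

theorem allOne_smul (v : leechLattice) : signCo0 allOne • v = -v := by
  apply Subtype.ext
  rw [signCo0_smul]
  funext i
  rw [signMap_apply]
  show sgn _ * _ = -((v : GolayPt → ℤ) i)
  have : (allOne : GolayPt → ZMod 2) i = 1 := rfl
  rw [this, sgn_one]
  ring

/-- an element of `A` of square one -/
theorem exists_sign {R : Subgroup Spor.Co1} (hR : ∃ k, Nat.card R = 2 ^ k) (h16 : 16 ≤ Nat.card R) :
    ∃ x ∈ R, ∃ (g : Spor.Co1) (c : golayCode), (wt c = 8 ∨ wt c = 12) ∧ g * x * g⁻¹ = mk (signCo0 c) := by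
  classical
  have hf0 := fin0
  have hf := fin
  set u : leechLattice := H707.RowCo1.u with hu
  set S : Subgroup Co0 := stabilizer Co0 u with hS
  have hidx : S.index = 196560 := H707.RowCo1.index_stab
  obtain ⟨k, hk⟩ := hR
  have hk4 : 4 ≤ k := by
    by_contra h6
    have h7 : (2 : ℕ) ^ k ≤ 2 ^ 3 := Nat.pow_le_pow_right (by norm_num) (by omega)
    omega
  have hcard : Nat.card (R.comap pr) = 2 ^ (k + 1) := by
    rw [card_comap, hk, pow_succ, mul_comm]
  -- a fixed point
  obtain ⟨g, hg1, x, hgx⟩ : ∃ g : R.comap pr, g ≠ 1 ∧ ∃ x : Co0 ⧸ S, g • x = x := by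
    by_contra hcon
    push Not at hcon
    have h1 := card_dvd (H := R.comap pr) (X := Co0 ⧸ S) hcon
    have h2 : Nat.card (Co0 ⧸ S) = 196560 := hidx
    rw [h2, hcard] at h1
    have h3 : (2 : ℕ) ^ 5 ∣ 196560 := (pow_dvd_pow 2 (by omega)).trans h1
    norm_num at h3
  induction x using QuotientGroup.induction_on with
  | H a =>
    have h1 : ((g : Co0) * a : Co0) • u = a • u := by
      have h2 : (((g : Co0) * a : Co0) : Co0 ⧸ S) = (a : Co0 ⧸ S) := hgx
      have h3 : a⁻¹ * ((g : Co0) * a) ∈ S := QuotientGroup.eq.1 h2.symm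
      have h4 : (a⁻¹ * ((g : Co0) * a)) • u = u := h3
      rw [mul_smul, inv_smul_eq_iff] at h4
      exact h4
    set v : leechLattice := a • u with hv
    have hgv : (g : Co0) • v = v := by rw [hv, ← mul_smul]; exact h1
    -- the power of order two
    have hord : orderOf (g : Co0) ∣ 2 ^ (k + 1) := by
      rw [← hcard]
      have := orderOf_dvd_natCard g
      rwa [← Subgroup.orderOf_coe] at this
    obtain ⟨j, -, hj⟩ := (Nat.dvd_prime_pow Nat.prime_two).1 hord
    have hj0 : j ≠ 0 := by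
      rintro rfl
      rw [pow_zero, orderOf_eq_one_iff] at hj
      exact hg1 (Subtype.ext hj)
    obtain ⟨i, rfl⟩ := Nat.exists_eq_succ_of_ne_zero hj0
    set h : Co0 := (g : Co0) ^ (2 ^ i) with hh
    have hh2 : h * h = 1 := by
      rw [hh, ← pow_add, ← two_mul, ← pow_succ', ← Nat.succ_eq_add_one, ← hj, pow_orderOf_eq_one]
    have hh1 : h ≠ 1 := by
      intro h0
      have h3 := orderOf_dvd_of_pow_eq_one h0
      rw [hj] at h3
      have h4 := Nat.le_of_dvd (pow_pos (by norm_num) _) h3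
      have h5 : (2 : ℕ) ^ i < 2 ^ i.succ := Nat.pow_lt_pow_right (by norm_num) (Nat.lt_succ_self i)
      omega
    have hhv : h • v = v := by
      have h3 : ∀ n : ℕ, ((g : Co0) ^ n) • v = v := by
        intro n
        induction n with
        | zero => rw [pow_zero, one_smul]
        | succ n ih => rw [pow_succ, mul_smul, hgv, ih]
      exact h3 _
    have hhR : pr h ∈ R := by
      have h3 : (g : Co0) ^ (2 ^ i) ∈ R.comap pr := (R.comap pr).pow_mem g.2 _
      exact h3
    have hprh : pr h ≠ 1 := by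
      intro h0
      rcases (mk_eq_one h).1 h0 with h3 | h3
      · exact hh1 h3
      · rw [h3, allOne_smul] at hhv
        have h4 : v = 0 := by
          apply Subtype.ext
          funext i
          have h5 := congrArg (fun w : leechLattice => (w : GolayPt → ℤ) i) hhv
          have h6 : -((v : GolayPt → ℤ) i) = (v : GolayPt → ℤ) i := h5
          show (v : GolayPt → ℤ) i = 0
          omega
        have h5 : sqNorm (v : GolayPt → ℤ) = 32 := by
          rw [hv, H707.RowCo1.norm_smul]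
          exact H707.RowCo1.norm_u
        rw [h4] at h5
        exact absurd h5 (by decide)
    obtain ⟨y, c, hc⟩ := conj_sign_of_sq_one h hh2
    have hc' : pr y * pr h * (pr y)⁻¹ = mk (signCo0 c) := by
      rw [← map_inv, ← map_mul, ← map_mul, hc]
      rfl
    have hcne : ¬ (wt c = 0 ∨ wt c = 24) := by
      intro h0
      apply hprh
      have h3 : pr (signCo0 c) = 1 := (pr_sign_eq_one_iff c).2 h0
      have h4 : pr y * pr h * (pr y)⁻¹ = 1 := hc'.trans h3
      rw [mul_inv_eq_one] at h4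
      exact mul_eq_left.1 h4
    rcases wt_cases c with h3 | h3 | h3 | h3 | h3
    · exact absurd (Or.inl h3) hcne
    · exact ⟨_, hhR, _, c, Or.inl h3, hc'⟩
    · exact ⟨_, hhR, _, c, Or.inr h3, hc'⟩
    · refine ⟨_, hhR, _, c + allOne, Or.inl ?_, by rw [mk_add_allOne]; exact hc'⟩
      have := wt_add_allOne c
      omega
    · exact absurd (Or.inr h3) hcne

/-- the index of the centraliser of an element of `E` -/
theorem index_E_le (c : golayCode) :
    (centralizer ({mk (signCo0 c)} : Set Spor.Co1)).index ≤ 2048 * 8292375 := by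
  have hf := fin
  set t := mk (signCo0 c) with ht
  set C := centralizer ({t} : Set Spor.Co1) with hC
  set F := MonsterU.CoFrameF.F with hF
  have htE : t ∈ E := ⟨c, rfl⟩
  have h1 : C.relIndex F ≤ 2048 := by
    rw [← card_E, Subgroup.relIndex, Subgroup.index]
    let φ : (F ⧸ C.subgroupOf F) → E := fun q =>
      Quotient.liftOn' q (fun f : F => (⟨(f : Spor.Co1) * t * (f : Spor.Co1)⁻¹,
        MonsterU.CoFrameF.conj_mem_E f.2 htE⟩ : E)) (by
          intro a b hab
          rw [QuotientGroup.leftRel_apply] at hab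
          have h2 : ((a : Spor.Co1)⁻¹ * b) * t = t * ((a : Spor.Co1)⁻¹ * b) := mem_centralizer_singleton_iff.1 hab
          apply Subtype.ext
          show (a : Spor.Co1) * t * (a : Spor.Co1)⁻¹ = b * t * (b : Spor.Co1)⁻¹
          calc (a : Spor.Co1) * t * (a : Spor.Co1)⁻¹ = a * (t * ((a : Spor.Co1)⁻¹ * b)) * (b : Spor.Co1)⁻¹ := by group
            _ = a * (((a : Spor.Co1)⁻¹ * b) * t) * (b : Spor.Co1)⁻¹ := by rw [h2]
            _ = _ := by group)
    have hφ : Function.Injective φ := by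
      intro p q hpq
      induction p using QuotientGroup.induction_on with
      | H a =>
        induction q using QuotientGroup.induction_on with
        | H b =>
          have h2 : (a : Spor.Co1) * t * (a : Spor.Co1)⁻¹ = b * t * (b : Spor.Co1)⁻¹ := congrArg Subtype.val hpq
          rw [QuotientGroup.eq]
          show (a : Spor.Co1)⁻¹ * b ∈ C
          rw [hC, mem_centralizer_singleton_iff]
          calc (a : Spor.Co1)⁻¹ * b * t = (a : Spor.Co1)⁻¹ * (b * t * (b : Spor.Co1)⁻¹) * b := by group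
            _ = (a : Spor.Co1)⁻¹ * (a * t * (a : Spor.Co1)⁻¹) * b := by rw [h2]
            _ = _ := by group
    exact Nat.card_le_card_of_injective φ hφ
  have h2 := Subgroup.relIndex_mul_index (inf_le_right : C ⊓ F ≤ F)
  rw [Subgroup.inf_relIndex_right, MonsterU.CoFrameF.index_F] at h2
  have h3 : C.index ≤ (C ⊓ F).index := Subgroup.index_antitone inf_le_left
  rw [← h2] at h3
  exact h3.trans (Nat.mul_le_mul_right _ h1)

theorem card_inf_mul {T : Type*} [Group T] (A B : Subgroup T) :
    Nat.card (A ⊓ B : Subgroup T) * A.relIndex B = Nat.card B := by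
  have h2 := (A.subgroupOf B).card_mul_index
  have h3 : Nat.card (A.subgroupOf B) = Nat.card (A ⊓ B : Subgroup T) := by
    rw [← Subgroup.inf_subgroupOf_right]
    exact Nat.card_congr (Subgroup.subgroupOfEquivOfLe inf_le_right).toEquiv
  rw [h3] at h2
  exact h2

theorem noncomm : ∃ a b : Spor.Co1, a * b ≠ b * a := by
  by_contra hcon
  push Not at hcon
  have h1 : centralizer ({mk (signCo0 CoOneType.GenCrit.c0)} : Set Spor.Co1) = ⊤ := by
    rw [eq_top_iff]
    intro x _
    exact mem_centralizer_singleton_iff.2 (hcon x _)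
  have h2 := index_cent H812.CoFiveData.wt_c0
  rw [h1, Subgroup.index_top] at h2
  norm_num at h2

theorem ord_two {x : Spor.Co1} (h : x * x = 1) (h1 : x ≠ 1) : orderOf x = 2 :=
  orderOf_eq_prime (by rw [pow_two]; exact h) h1

theorem mk_sign_sq (c : golayCode) : mk (signCo0 c) * mk (signCo0 c) = 1 := by
  rw [← mk_mul, signCo0_mul_self]; rfl

theorem mk_sign_ne {c : golayCode} (h : wt c = 8 ∨ wt c = 12) : mk (signCo0 c) ≠ 1 := by
  intro h0
  have h1 := (pr_sign_eq_one_iff c).1 h0
  omega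

variable {A : Subgroup Spor.Co1} {Γ : Subgroup (MulAut Spor.Co1)}

theorem octad (h : IF A Γ) {o : golayCode} (ho : wt o = 8) (hA : mk (signCo0 o) ∈ A) : False := by
  have hf := fin
  have hs : IsSimpleGroup Spor.Co1 := Cfsg.Agent.S0399.result.1
  have key : ∀ o : golayCode, wt o = 8 → mk (signCo0 o) ∈ A →
      centralizer ({mk (signCo0 o)} : Set Spor.Co1) ≤ A := by
    intro o ho hA
    apply cent_le ho
    obtain ⟨-, -, -, -, h1⟩ := H999.IFB.IF.E2' h noncomm hA (ord_two (mk_sign_sq o) (mk_sign_ne (Or.inl ho)))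
    have h2 := (h1 _ le_rfl).1
    rw [index_cent ho] at h2
    by_contra hcon
    have h3 : 120 ^ 5 ≤ A.relIndex (centralizer ({mk (signCo0 o)} : Set Spor.Co1)) ^ 5 :=
      Nat.pow_le_pow_left (not_lt.1 hcon) 5
    norm_num at h3
    omega
  apply h.ne_top
  apply eq_top_of_cent
  intro o' ho'
  exact key o' ho' (key o ho hA (E_le_cent o ⟨o', rfl⟩))

theorem dodecad (h : IF A Γ) {c : golayCode} (hc : wt c = 12) (hA : mk (signCo0 c) ∈ A) : False := by
  have hf := fin
  have hs : IsSimpleGroup Spor.Co1 := Cfsg.Agent.S0399.result.1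
  obtain ⟨-, -, -, -, h1⟩ := H999.IFB.IF.E2' h noncomm hA (ord_two (mk_sign_sq c) (mk_sign_ne (Or.inr hc)))
  have h2 := (h1 E (E_le_cent c)).1
  have h3 := index_E_le c
  have h4 : A.relIndex E ≤ 111 := by
    by_contra hcon
    have h5 : 112 ^ 5 ≤ A.relIndex E ^ 5 := Nat.pow_le_pow_left (by omega) 5
    norm_num at h5
    omega
  have h5 := card_inf_mul A E
  rw [card_E] at h5
  obtain ⟨o, ho, hoA⟩ := Co1D.exists_octad (A := A) (by
    by_contra hcon
    have h6 : Nat.card (A ⊓ E : Subgroup Spor.Co1) * A.relIndex E ≤ 18 * 111 := Nat.mul_le_mul (by omega) h4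
    omega)
  exact octad h ho hoA

theorem sign (h : IF A Γ) {c : golayCode} (hc : wt c = 8 ∨ wt c = 12) {x g : Spor.Co1} (hx : x ∈ A)
    (hg : g * x * g⁻¹ = mk (signCo0 c)) : False := by
  have h1 := h.map (MulAut.conj g)
  have h2 : mk (signCo0 c) ∈ A.map (MulAut.conj g).toMonoidHom := ⟨x, hx, hg⟩
  rcases hc with hc | hc
  · exact octad h1 hc h2
  · exact dodecad h1 hc h2

/-- the class `2B` -/
theorem two_b (h : IF A Γ) (hw : TwoB.w ∈ A) : False := by
  have hf := fin
  have hs : IsSimpleGroup Spor.Co1 := Cfsg.Agent.S0399.result.1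
  obtain ⟨-, -, -, -, h1⟩ := H999.IFB.IF.E2' h noncomm hw (ord_two KFacts.Co1D4.TwoB.ww KFacts.Co1D4.TwoB.w_ne)
  have hL : GTwo.L ≤ centralizer ({TwoB.w} : Set Spor.Co1) := fun l hl =>
    mem_centralizer_singleton_iff.2 (KFacts.Co1D4.TwoB.Lw l hl)
  -- a 2-subgroup of `L`
  obtain ⟨P0, hP0⟩ := Sylow.exists_subgroup_card_pow_prime (G := GTwo.L) 2 (n := 12) (by
    rw [KFacts.Co1D4.GTwo.card_L]; norm_num)
  set P : Subgroup Spor.Co1 := P0.map GTwo.L.subtype with hP
  have hPc : Nat.card P = 4096 := by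
    rw [hP, Subgroup.card_map_of_injective GTwo.L.subtype_injective, hP0]
    norm_num
  have hPL : P ≤ GTwo.L := by
    rintro _ ⟨y, -, rfl⟩
    exact y.2
  have h2 := (h1 P (hPL.trans hL)).1
  have h3 : (centralizer ({TwoB.w} : Set Spor.Co1)).index ≤ 16525555200 := by
    have h4 := (centralizer ({TwoB.w} : Set Spor.Co1)).card_mul_index
    have h5 : 251596800 ≤ Nat.card (centralizer ({TwoB.w} : Set Spor.Co1)) := by
      rw [← KFacts.Co1D4.GTwo.card_L]
      exact Nat.card_le_card_of_injective _ (Subgroup.inclusion_injective hL)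
    rw [card_Co1] at h4
    have h6 : 251596800 * (centralizer ({TwoB.w} : Set Spor.Co1)).index ≤ 4157776806543360000 := by
      rw [← h4]
      exact Nat.mul_le_mul_right _ h5
    omega
  have h4 : A.relIndex P ≤ 110 := by
    by_contra hcon
    have h5 : 111 ^ 5 ≤ A.relIndex P ^ 5 := Nat.pow_le_pow_left (by omega) 5
    norm_num at h5
    omega
  have h5 := card_inf_mul A P
  rw [hPc] at h5
  obtain ⟨x, hx, g, c, hc, hg⟩ := exists_sign (R := A ⊓ P) (by
    have h6 : Nat.card (A ⊓ P : Subgroup Spor.Co1) ∣ 2 ^ 12 := Dvd.intro _ (h5.trans (by norm_num))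
    obtain ⟨k, -, hk⟩ := (Nat.dvd_prime_pow Nat.prime_two).1 h6
    exact ⟨k, hk⟩) (by
    by_contra hcon
    have h6 : Nat.card (A ⊓ P : Subgroup Spor.Co1) * A.relIndex P ≤ 15 * 110 := Nat.mul_le_mul (by omega) h4
    omega)
  exact sign h hc hx.1 hg

theorem even (h : IF A Γ) {t : Spor.Co1} (ht : t ∈ A) (h2 : orderOf t = 2) : False := by
  have hsq : t * t = 1 := by rw [← pow_two, ← h2, pow_orderOf_eq_one]
  have hne : t ≠ 1 := by
    rintro rfl
    rw [orderOf_one] at h2
    omega
  rcases KFacts.Co1D4.Base.cases t hsq hne with ⟨g, c, hc, hg⟩ | ⟨g, c, hc, hg⟩ | ⟨g, hg⟩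
  · exact sign h (Or.inl hc) ht (g := g⁻¹) (by rw [← hg]; group)
  · exact sign h (Or.inr hc) ht (g := g⁻¹) (by rw [← hg]; group)
  · obtain ⟨g', hg'⟩ := KFacts.Co1D4.TwoB.conj_w g
    refine two_b (h.map (MulAut.conj g'⁻¹)) ⟨t, ht, ?_⟩
    show g'⁻¹ * t * g'⁻¹⁻¹ = TwoB.w
    rw [← hg, hg']
    group

/-- **`Co₁`** -/
theorem kill : Kill Spor.Co1 := by
  intro A Γ h
  have hf := fin
  have hs : IsSimpleGroup Spor.Co1 := Cfsg.Agent.S0399.result.1
  obtain ⟨σ, hσ, h2, -⟩ := h.ex
  obtain ⟨s, hs'⟩ := ConwayFacts.AutCo1.inner σ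
  have h3 : σ = MulAut.conj s := MulEquiv.ext fun g => hs' g
  subst h3
  have h4 : s ∈ A := (h.conj s).1 hσ
  rw [H999.IFB.orderOf_conj noncomm] at h2
  exact even h h4 h2

/-- **Row `Co₁` of S5719.** -/
theorem row_co1 : Row fun T => Spor.IsoCo1 T := by
  intro T _ _ _ _ h A Γ hA
  obtain ⟨e⟩ := h
  exact Kill.congr e.symm kill A Γ hA

end Cfsg.Agent.H956.IF.Co1B
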