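import Cfsg.Agent.H956.IF.Co1A

/-!
# S5719, row `Co₁` (helper956): `|A ∩ E| ≥ 19` gives an octad element of `E` in `A`
-/

set_option autoImplicit false

namespace Cfsg.Agent.H956.IF.Co1D

open Cfsg Subgroup Cfsg.Agent.H956.IF.Co1A
open Cfsg.Agent.CoOneType.ClosingFacts (mk mk_mul mk_inv exists_mk mk_eq_one mk_eq mk_add_allOne isConj_octad
  eq_zero_of_wt eq_allOne_of_wt)
open Cfsg.Agent.SporadicA.Co0Mono Cfsg.Agent.SporadicA.Co1Simple
open Cfsg.Agent.CoOneType.SignFacts (sup mem_sup notMem_sup wt sup_mem wt_cases sup_add_allOne wt_add_allOne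
  sign_allOne_comm wt_eq_of_conj)
open Cfsg.Agent.CoOneType.CoOneE (pr pr_surjective E mem_E E_sq card_E pr_sign_add_allOne pr_sign_eq_iff
  add_allOne_add_allOne)

/-- the zeros of the words of `W` at a coordinate -/
def kr (W : AddSubgroup golayCode) (i : GolayPt) : W →+ ZMod 2 where
  toFun c := ((c : golayCode) : GolayPt → ZMod 2) i
  map_zero' := rfl
  map_add' _ _ := rfl

theorem dvd_ker (W : AddSubgroup golayCode) (h : 32 ∣ Nat.card W) (i : GolayPt) :
    16 ∣ Nat.card {c : W // ((c : golayCode) : GolayPt → ZMod 2) i = 0} := by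
  have h1 : Nat.card {c : W // ((c : golayCode) : GolayPt → ZMod 2) i = 0} = Nat.card (kr W i).ker := rfl
  have h2 := AddSubgroup.card_eq_card_quotient_mul_card_addSubgroup (kr W i).ker
  have h3 : Nat.card (W ⧸ (kr W i).ker) = Nat.card (kr W i).range :=
    Nat.card_congr (QuotientAddGroup.quotientKerEquivRange (kr W i)).toEquiv
  have h4 : Nat.card (kr W i).range ∣ 2 := by
    have h5 := AddSubgroup.card_addSubgroup_dvd_card (kr W i).range
    rwa [Nat.card_zmod] at h5
  rw [h1]
  rw [h3] at h2
  rcases (Nat.dvd_prime Nat.prime_two).1 h4 with h5 | h5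
  · rw [h5] at h2; omega
  · rw [h5] at h2; omega

theorem card_zero (c : golayCode) :
    (Finset.univ.filter fun i : GolayPt => (c : GolayPt → ZMod 2) i = 0).card = 24 - wt c := by
  have h1 : (Finset.univ.filter fun i : GolayPt => (c : GolayPt → ZMod 2) i = 0) = (sup c)ᶜ := by
    ext i
    rw [Finset.mem_filter, Finset.mem_compl, notMem_sup]
    simp
  rw [h1, Finset.card_compl]
  have h3 : Fintype.card GolayPt = 24 := by
    rw [Fintype.card_option, ZMod.card]
  rw [h3]
  rfl

/-- a subspace of the code of order divisible by `32` with only words of weight `12` does not exist -/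
theorem not_all_twelve (W : AddSubgroup golayCode) (h : 32 ∣ Nat.card W)
    (hW : ∀ c ∈ W, c ≠ 0 → wt c = 12) : False := by
  classical
  have : Fintype W := Fintype.ofFinite W
  have h1 : ∑ c : W, (Finset.univ.filter fun i : GolayPt => ((c : golayCode) : GolayPt → ZMod 2) i = 0).card =
      ∑ i : GolayPt, Nat.card {c : W // ((c : golayCode) : GolayPt → ZMod 2) i = 0} := by
    have h2 : ∀ i : GolayPt, Nat.card {c : W // ((c : golayCode) : GolayPt → ZMod 2) i = 0} =
        ∑ c : W, if ((c : golayCode) : GolayPt → ZMod 2) i = 0 then 1 else 0 := by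
      intro i
      rw [Finset.sum_boole, Nat.card_eq_fintype_card, Fintype.card_subtype]
      rfl
    rw [Finset.sum_congr rfl fun i _ => h2 i, Finset.sum_comm]
    refine Finset.sum_congr rfl fun c _ => ?_
    rw [Finset.sum_boole]
    rfl
  have h2 : 16 ∣ ∑ i : GolayPt, Nat.card {c : W // ((c : golayCode) : GolayPt → ZMod 2) i = 0} :=
    Finset.dvd_sum fun i _ => dvd_ker W h i
  have h3 : ∑ c : W, (Finset.univ.filter fun i : GolayPt => ((c : golayCode) : GolayPt → ZMod 2) i = 0).card =
      24 + 12 * (Nat.card W - 1) := by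
    have h4 : ∀ c : W, (Finset.univ.filter fun i : GolayPt => ((c : golayCode) : GolayPt → ZMod 2) i = 0).card =
        if c = 0 then 24 else 12 := by
      intro c
      split_ifs with hc
      · rw [hc]
        have h5 : (Finset.univ.filter fun i : GolayPt => (((0 : W) : golayCode) : GolayPt → ZMod 2) i = 0) =
            Finset.univ := by
          ext i
          simp
        rw [h5, Finset.card_univ, Fintype.card_option, ZMod.card]
      · rw [card_zero, hW c c.2 fun h0 => hc (Subtype.ext h0)]
    rw [Finset.sum_congr rfl fun c _ => h4 c, ← Finset.add_sum_erase _ _ (Finset.mem_univ (0 : W)), if_pos rfl,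
      Finset.sum_congr rfl (g := fun _ => 12) (fun c hc => if_neg (Finset.ne_of_mem_erase hc)), Finset.sum_const,
      Finset.card_erase_of_mem (Finset.mem_univ _), Finset.card_univ, Nat.card_eq_fintype_card, smul_eq_mul, mul_comm]
  rw [← h1, h3] at h2
  have h4 : 0 < Nat.card W := Nat.card_pos
  omega

/-- **`|A ∩ E| ≥ 19`** -/
theorem exists_octad {A : Subgroup Spor.Co1} (hA : 19 ≤ Nat.card (A ⊓ E : Subgroup Spor.Co1)) :
    ∃ o : golayCode, wt o = 8 ∧ mk (signCo0 o) ∈ A := by
  classical
  by_contra hcon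
  push Not at hcon
  let W : AddSubgroup golayCode :=
    { carrier := {c | mk (signCo0 c) ∈ A ∧ (c : GolayPt → ZMod 2) none = 0}
      zero_mem' := by
        refine ⟨?_, rfl⟩
        rw [signCo0_zero]
        exact A.one_mem
      add_mem' := by
        rintro c d ⟨hc, hc'⟩ ⟨hd, hd'⟩
        refine ⟨?_, ?_⟩
        · rw [signCo0_add, mk_mul]
          exact A.mul_mem hc hd
        · show (c : GolayPt → ZMod 2) none + (d : GolayPt → ZMod 2) none = 0
          rw [hc', hd', add_zero]
      neg_mem' := by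
        rintro c ⟨hc, hc'⟩
        have h1 : -c = c := by
          apply Subtype.ext
          funext i
          show -((c : GolayPt → ZMod 2) i) = (c : GolayPt → ZMod 2) i
          exact ZMod.neg_eq_self_mod_two _
        show mk (signCo0 (-c)) ∈ A ∧ _
        rw [h1]
        exact ⟨hc, hc'⟩ }
  have hWm : ∀ c, c ∈ W ↔ mk (signCo0 c) ∈ A ∧ (c : GolayPt → ZMod 2) none = 0 := fun _ => Iff.rfl
  have hcard : Nat.card (A ⊓ E : Subgroup Spor.Co1) ≤ Nat.card W := by
    let φ : W → (A ⊓ E : Subgroup Spor.Co1) := fun c => ⟨mk (signCo0 c), c.2.1, ⟨c, rfl⟩⟩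
    apply Nat.card_le_card_of_surjective φ
    rintro ⟨x, hxA, c, hc⟩
    rcases SporadicStructure.LeechBase.zmod2_cases ((c : GolayPt → ZMod 2) none) with h | h
    · refine ⟨⟨c, ?_, h⟩, Subtype.ext hc.symm⟩
      have h1 : x = mk (signCo0 c) := hc
      rwa [← h1]
    · have h1 : x = mk (signCo0 (c + allOne)) := by rw [mk_add_allOne]; exact hc
      refine ⟨⟨c + allOne, ?_, ?_⟩, Subtype.ext h1.symm⟩
      · rwa [← h1]
      · show (c : GolayPt → ZMod 2) none + (allOne : GolayPt → ZMod 2) none = 0
        rw [h]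
        decide
  have h32 : 32 ∣ Nat.card W := by
    have h1 : Nat.card W ∣ 2 ^ 12 := by
      have h2 := AddSubgroup.card_addSubgroup_dvd_card W
      rwa [Cfsg.Agent.S0358.card_golayCode] at h2
    obtain ⟨k, hk, hkW⟩ := (Nat.dvd_prime_pow Nat.prime_two).1 h1
    rw [hkW]
    have h5 : 5 ≤ k := by
      by_contra h6
      have h7 : (2 : ℕ) ^ k ≤ 2 ^ 4 := Nat.pow_le_pow_right (by norm_num) (by omega)
      omega
    exact pow_dvd_pow 2 h5
  refine not_all_twelve W h32 fun c hc hc0 => ?_
  rcases wt_cases c with h | h | h | h | h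
  · exact absurd (eq_zero_of_wt h) hc0
  · exact absurd hc.1 (hcon c h)
  · exact h
  · exfalso
    refine hcon (c + allOne) ?_ ?_
    · have := wt_add_allOne c
      omega
    · rw [mk_add_allOne]
      exact hc.1
  · exfalso
    have h1 := hc.2
    rw [eq_allOne_of_wt h] at h1
    exact absurd h1 (by decide)

end Cfsg.Agent.H956.IF.Co1D
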